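import Cfsg.Agent.Lib.Prim.NVL

/-! Degrees of primitive characters of solvable groups and conjugacy class sizes. -/

set_option autoImplicit false

namespace Cfsg.Agent.Prim

open Subgroup FT Tr

variable {G : Type*} [Group G] [Finite G] {H N R U V : Subgroup G} {p : ℕ} {χ θ : G → ℂ}

theorem ind_top [Fintype G] (H : Subgroup G) (θ : G → ℂ) :
    ind ⊤ H θ = indFun H fun x => θ x := by
  ext g
  rw [cfIndE _ _ (mem_top g), indFun, ebz_eq_res]
  congr 1
  exact Finset.sum_congr (by ext; simp [mem_fs]) fun x _ => rfl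

/-- a primitive character is quasi-primitive -/
theorem prim_invariant [Fintype G] (hχ : χ ∈ Irr ⊤)
    (hprim : ¬ ∃ H : Subgroup G, H ≠ ⊤ ∧ ∃ θ : H → ℂ, IsCharacter H θ ∧ indFun H θ = χ)
    (hN : N ⊴ ⊤) (hθ : θ ∈ constt N χ) : ⊤ ≤ inertia N θ := by
  have i := constt_irr' hθ
  obtain ⟨ψ, hψ, e⟩ := Inertia_Ind_onto hN i rfl ((constt_Ind_Res le_top hχ i).2 hθ)
  by_contra c
  exact hprim ⟨_, fun e => c (e.ge.trans inf_le_right), _, (irr_char (constt_irr' hψ)).isChar,
    by rw [← ind_top, e]⟩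

theorem index_cent_mul (h : V ⊴ U) (C : Subgroup G) :
    C.relIndex U = C.relIndex V * (V ⊔ U ⊓ C).relIndex U := by
  have n := inf_le_left.trans h.nz (a := U ⊓ C)
  rw [← indexgI U C, ← Lagrange_index le_sup_right (sup_le h.le inf_le_left), index_join_right n,
    ← indexgI V, ← inf_assoc, inf_eq_left.2 h.le, indexgI]

theorem nvl' [Fact p.Prime] (hs : Group.IsSolvable G) (hV : MinNormal V ⊤) (hp : IsPGroup p V)
    {G' : Type*} [Group G'] [Fintype G'] {f : G' → G} (hf : ∀ a b, f (a * b) = f a * f b)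
    (hf' : Function.Surjective f) {k : ℕ} (hk : 2 * k ≤ vp p V) :
    Nat.card G' * k ≤ ∑ g, (vp p V - vp p (V ⊓ 𝐂[f g])) := by
  by_cases hc : 𝐂(V) = ⊤
  · obtain ⟨x, hx, o⟩ := FT.Cauchy Fact.out (pgroup_pdiv hp hV.ne)
    have e := (hV.eq_or (cycle_subG.2 hx) (cents_norm (centsC.1 ((cycle_subG.2 hx).trans
      (centsC.1 hc.ge))))).resolve_left (by
        rw [zpowers_eq_bot]; rintro rfl; exact (Fact.out : p.Prime).ne_one (by simpa using o.symm))
    have : vp p V = 1 := by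
      rw [vp, ← e, Nat.card_zpowers, o, (Fact.out : p.Prime).factorization_self]
    obtain rfl : k = 0 := by omega
    simp
  have := nvl hs hV hp hc hf hf'
  have e : ∑ g, (vp p V - vp p (V ⊓ 𝐂[f g])) + ∑ g, vp p (V ⊓ 𝐂[f g]) = Nat.card G' * vp p V := by
    rw [← Finset.sum_add_distrib, Finset.sum_congr rfl fun g _ =>
      Nat.sub_add_cancel (vp_mono inf_le_left)]
    simp
  rw [← Finset.mul_sum] at this
  nlinarith [Nat.mul_le_mul_left (Nat.card G') hk]

theorem step [Fintype G] [hp : Fact p.Prime] (hs : Group.IsSolvable G) (hR : R ⊴ ⊤)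
    (hR' : ∀ a ∈ R, ∃ k, a ^ p ^ k ∈ fit ⊤) (h : ChiefFactor ⊤ V U) {e : ℕ}
    (he : e ^ 2 ∣ V.relIndex U) : ∃ d : G → ℕ, (∀ g, ∀ r ∈ R,
      p ^ d g ∣ (V ⊔ U ⊓ 𝐂[r * g]).relIndex U) ∧ Nat.card G * e.factorization p ≤ ∑ g, d g := by
  by_cases pe : p ∣ e; swap
  · exact ⟨0, fun _ _ _ => by simp, by simp [Nat.factorization_eq_zero_of_not_dvd pe]⟩
  have n {A : Subgroup G} : A ≤ 𝐍(V) := le_top.trans h.nz
  have c := card_quotient (n (A := U))
  have m := h.minnormal
  rw [quotient_top] at m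
  have hP : IsPGroup p (U /c V) := by
    obtain ⟨r, k, hr, -, e', -⟩ := sol_chief_abelem' h inferInstance
    obtain rfl := (Nat.prime_dvd_prime_iff_eq hp.out hr).1 (hp.out.dvd_of_dvd_pow
      (e' ▸ (dvd_pow pe two_ne_zero).trans he))
    exact .of_card (c.trans e')
  have nR : ⊤ ≤ 𝐍(R /c V) := quotient_top V ▸ (quotient_normal V hR).nz
  have cF : fit ⊤ ≤ 𝐂(U /c V) := centsC.1 ((m.le_center (Fitting_nil ⊤)
    ⟨Fitting_max ⟨le_top, m.nz⟩ hP.isNilpotent, le_top.trans m.nz⟩ (Fitting_norm ⊤)).trans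
    inf_le_right)
  have cR : U /c V ≤ 𝐂(R /c V) := m.le_of_inf (nR.trans (cent_norm _))
    (cent_ne_bot hP m.ne (le_top.trans m.nz) fun a ha => by
      obtain ⟨b, hb, rfl⟩ := (mem_qt_of_le n).1 ha
      obtain ⟨k, hk⟩ := hR' b hb
      refine ⟨k, cF ?_⟩
      rw [← cst_pow (n hb), ← quotient_top V]
      exact quotient_Fitting_le V ⊤ (mem_quotient V hk))
  refine ⟨fun g => vp p (U /c V) - vp p (U /c V ⊓ 𝐂[cst V g]), fun g r hr => ?_,
    nvl' inferInstance m hP
      (fun a b => cst_mul (n (mem_top a)) (n (mem_top b)))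
      (fun z => (cst_surj z).imp fun _ h => h.2) ?_⟩
  · rw [← index_quotient_sup n n]
    refine dvd_trans ?_ (indexgS _ (quotient_subcent1 V U (r * g)))
    have : U /c V ⊓ 𝐂[cst V (r * g)] = U /c V ⊓ 𝐂[cst V g] := by
      ext y
      refine and_congr_right fun hy => ?_
      have := mem_centralizer_iff.1 (cR hy) _ (mem_quotient V hr)
      refine mem_cent1.trans (Iff.trans ?_ mem_cent1.symm)
      rw [cst_mul (n hr) (n (mem_top g)), ← mul_assoc, ← this, mul_assoc, mul_assoc, mul_right_inj]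
    rw [this, indexgI]
    have := congrArg (fun n => n.factorization p) (LagrangeI' (U /c V) 𝐂[cst V g])
    simp only [Nat.factorization_mul Nat.card_pos.ne' (indexg_ne0 _ _), Finsupp.add_apply] at this
    exact (hp.out.pow_dvd_iff_le_factorization (indexg_ne0 _ _)).2 (by simp only [vp]; omega)
  · have := (Nat.factorization_le_iff_dvd (fun h => indexg_ne0 _ _ (zero_dvd_iff.1 (h ▸ he)))
      (indexg_ne0 _ _)).2 he p
    rw [vp, c]; simpa using this

theorem main [Fintype G] [hp : Fact p.Prime] (hs : Group.IsSolvable G) (hχ : χ ∈ Irr ⊤)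
    (hprim : ¬ ∃ H : Subgroup G, H ≠ ⊤ ∧ ∃ θ : H → ℂ, IsCharacter H θ ∧ indFun H θ = χ)
    (hR : R ⊴ ⊤) (hR' : ∀ a ∈ R, ∃ k, a ^ p ^ k ∈ fit ⊤) {m : ℕ} (hm : χ 1 = m) :
    ∃ g, ∀ r ∈ R, m.factorization p ≤ (𝐂[r * g].index).factorization p := by
  have key := chief_induction (L := (⊤ : Subgroup G)) (P := fun N => ∀ θ ∈ constt N χ, ∀ m : ℕ,
    θ 1 = m → ∃ D : G → ℕ, (∀ g, ∀ r ∈ R, p ^ D g ∣ 𝐂[r * g].relIndex N) ∧
      Nat.card G * m.factorization p ≤ ∑ g, D g) (normal_refl ⊤) (fun θ hθ m hm => ?_)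
    (fun V U h _ ih θ hθ m hm => ?_) χ (by simp [constt_irr hχ]) m hm
  · obtain ⟨D, h1, h2⟩ := key
    obtain ⟨g, -, hg⟩ := Finset.exists_le_of_sum_le (s := Finset.univ) (f := fun _ =>
      m.factorization p) (g := D) ⟨1, Finset.mem_univ _⟩ (by simpa using h2)
    exact ⟨g, fun r hr => hg.trans ((hp.out.pow_dvd_iff_le_factorization
      (index_ne_zero_of_finite)).1 (relIndex_top_right (G := G) _ ▸ h1 g r hr))⟩
  · have := (irr_abelian_lin inferInstance (constt_irr' hθ)).one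
    obtain rfl : m = 1 := by exact_mod_cast hm.symm.trans this
    exact ⟨0, fun _ _ _ => by simp, by simp⟩
  have i := constt_irr' hθ
  obtain ⟨φ, hφ⟩ := constt_cfRes_irr h.le i
  have i' := constt_irr' hφ
  have hφ' : φ ∈ constt V χ := by
    have := constt_Res_trans h.le (cfRes_char (irr_char hχ) le_top) (by rwa [constt_res]) hφ
    simpa only [constt, dot_res_left_of_le h.le] using this
  obtain ⟨e, e0, h1, -, h2⟩ := cfInd_central_invariant h.le i'
    (le_top.trans (prim_invariant hχ hprim h.nrm_low hφ'))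
    (sol_chief_abelem' h inferInstance).choose_spec.choose_spec.2.2.2.1
  obtain ⟨m', m0, hm'⟩ := irr1_degree i'
  obtain rfl : m = e * m' := by
    have := congrFun (h1 θ ((constt_Ind_Res h.le i i').2 hφ)) 1
    rw [res_of_mem (one_mem V), hm, Pi.smul_apply, hm', smul_eq_mul] at this
    exact_mod_cast this
  obtain ⟨D, d1, d2⟩ := ih φ hφ' m' hm'
  obtain ⟨d, d3, d4⟩ := step hs hR hR' h (Dvd.intro_left _ h2)
  refine ⟨D + d, fun g r hr => ?_, ?_⟩
  · rw [index_cent_mul h.nrm_factor, Pi.add_apply, pow_add]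
    exact mul_dvd_mul (d1 g r hr) (d3 g r hr)
  · simp only [Nat.factorization_mul e0.ne' m0.ne', Finsupp.add_apply, Pi.add_apply,
      Finset.sum_add_distrib, mul_add]
    omega

end Cfsg.Agent.Prim
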