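import Cfsg.Agent.Lib.FT.ApiCF2e

/-! The Neumann - Vaughan-Lee bound on average fixed point spaces for solvable groups. -/

set_option autoImplicit false

namespace Cfsg.Agent.Prim

open Subgroup FT Tr

variable {G : Type*} [Group G] [Finite G] {A H K L U V W X : Subgroup G} {p q : ℕ} {x : G}

/-- the exponent of `p` in the order of `H` -/
noncomputable def vp (p : ℕ) (H : Subgroup G) : ℕ := (#|H|).factorization p

theorem vp_mul {a b : Subgroup G} : (#|a| * #|b|).factorization p = vp p a + vp p b := by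
  rw [Nat.factorization_mul Nat.card_pos.ne' Nat.card_pos.ne']; rfl

theorem vp_mono (h : H ≤ K) : vp p H ≤ vp p K :=
  (Nat.factorization_le_iff_dvd Nat.card_pos.ne' Nat.card_pos.ne').2 (card_dvd_of_le h) p

theorem vp_dprod (h : Dprod K H L) : vp p K + vp p H = vp p L := by rw [← vp_mul, h.card]; rfl

theorem vp_TI (hK : K ≤ L) (hH : H ≤ L) (h : H ≤ 𝐍(K)) (hd : K ⊓ H = ⊥) :
    vp p K + vp p H ≤ vp p L := by
  rw [← vp_mul, ← TI_cardMg h hd]; exact vp_mono (sup_le hK hH)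

theorem vp_le (hX : X ≤ V) (h : Dprod U W V) : vp p X ≤ vp p (X ⊓ U) + vp p W := by
  have := congrArg (fun n => n.factorization p) (norm_joinEl (hX.trans h.nrm_left.nz)).card
  simp only [vp_mul] at this
  have := vp_mono (p := p) (sup_le hX h.left_le)
  have := vp_dprod (p := p) h
  omega

theorem mulEq_cent [Fact q.Prime] (hn : H ≤ 𝐍(V)) (hp : ∀ a ∈ H, ∃ k, a ^ q ^ k ∈ 𝐂(V)) :
    ∃ Q : Subgroup G, IsPGroup q Q ∧ MulEq Q (H ⊓ 𝐂(V)) H := by
  obtain ⟨Q, hQ⟩ := Sylow_exists q H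
  have n := hn.trans (cent_norm V)
  refine ⟨Q, hQ.pgroup, Sylow_mulEq hQ inf_le_left ?_⟩
  rw [inf_relIndex_left, ← quotient_pgroup_iff n]
  refine pgroup_of_forall_elt fun y hy => ?_
  obtain ⟨a, ha, rfl⟩ := (mem_qt_of_le n).1 hy
  obtain ⟨k, hk⟩ := hp a ha
  exact p_elt_exp.2 ⟨k, by rw [← cst_pow (n ha), coset_id hk]⟩

theorem dprod_cent [Fact q.Prime] (hV : IsMulCommutative V) (hq : ¬ q ∣ #|V|) (hn : H ≤ 𝐍(V))
    (hp : ∀ a ∈ H, ∃ k, a ^ q ^ k ∈ 𝐂(V)) : Dprod ⁅V, H⁆ (V ⊓ 𝐂(H)) V := by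
  obtain ⟨Q, hQ, m⟩ := mulEq_cent hn hp
  have := coprime_abelian_cent_dprod (m.left_le.trans hn) 
    (coprime_p'group_pgroup (p'groupE.2 hq) hQ) hV
  rw [← m.sup, commGC, commMG_cent' inf_le_right (normsI (m.left_le.trans (normG H))
    ((m.left_le.trans hn).trans (cent_norm V))), commGC, centY, inf_comm 𝐂(Q), ← inf_assoc,
    inf_eq_left.2 (centsC.1 inf_le_right)]
  exact this

theorem cent_ne_bot [Fact p.Prime] (hV : IsPGroup p V) (h1 : V ≠ ⊥) (hn : H ≤ 𝐍(V))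
    (hp : ∀ a ∈ H, ∃ k, a ^ p ^ k ∈ 𝐂(V)) : V ⊓ 𝐂(H) ≠ ⊥ := by
  obtain ⟨Q, hQ, m⟩ := mulEq_cent hn hp
  have n := m.left_le.trans hn
  refine fun h => meet_center_pgroup (isPGroup_sup hV hQ n) ⟨le_sup_left, sup_le (normG V) n⟩ h1
    (eq_bot_iff.2 (le_trans ?_ h.le))
  refine le_inf inf_le_left ((centS m.sup.ge).trans' ((centY _ _).ge.trans' ?_))
  exact le_inf (inf_le_right.trans (inf_le_right.trans (centS le_sup_right)))
    (inf_le_left.trans (centsC.1 inf_le_right))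

theorem coset_bound (p : ℕ) [Fact q.Prime] (hx : x ∈ 𝐍(A)) (hV : IsMulCommutative V)
    (hq : ¬ q ∣ #|V|) (hA : A ≤ 𝐍(V)) (hxV : x ∈ 𝐍(V)) (hab : ⁅A, A⁆ ≤ 𝐂(V))
    (hp : ∀ a ∈ A, ∃ k, a ^ q ^ k ∈ 𝐂(V)) (h0 : V ⊓ 𝐂(A) = ⊥) :
    ∑ a ∈ fs (A : Set G), 2 * vp p (V ⊓ 𝐂[a * x]) ≤ #|A| * vp p V := by
  induction V using WellFoundedLT.induction with | ind V ih =>
  by_cases h1 : V = ⊥
  · simp [h1, vp]
  obtain ⟨H, -, ⟨HA, hW⟩, mx⟩ := Finite.exists_le_maximal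
    (p := fun H : Subgroup G => H ≤ A ∧ V ⊓ 𝐂(H) ≠ ⊥) (a := ⊥) ⟨bot_le, by rwa [cent1T, inf_top_eq]⟩
  have mx' : ∀ K ≤ A, ¬ K ≤ H → V ⊓ 𝐂(H) ⊓ 𝐂(K) = ⊥ := fun K hK n => by
    by_contra c
    exact n (le_sup_right.trans (mx ⟨sup_le HA hK, by rwa [centY, ← inf_assoc]⟩ le_sup_left))
  have dH : ⁅A, A⁆ ≤ H := by
    by_contra n
    exact hW (by rw [← mx' _ (der_sub A) n, inf_right_comm, inf_eq_left.2 (centsC.1 hab)])
  have nH := sub_der1_norm dH HA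
  have D := dprod_cent hV hq (HA.trans hA) fun a ha => hp a (HA ha)
  have nU : A ≤ 𝐍(⁅V, H⁆) := normsR hA nH
  have nW : A ≤ 𝐍(V ⊓ 𝐂(H)) := normsI hA (nH.trans (cent_norm H))
  have lt : ⁅V, H⁆ < V := D.sdprod.left_lt hW
  have ih' : ∀ U < V, A ≤ 𝐍(U) → x ∈ 𝐍(U) →
      ∑ a ∈ fs (A : Set G), 2 * vp p (U ⊓ 𝐂[a * x]) ≤ #|A| * vp p U := fun U hU n1 n2 =>
    ih U hU (abelianS hU.le hV) (fun h => hq (h.trans (card_dvd_of_le hU.le))) n1 n2
      (hab.trans (centS hU.le)) (fun a ha => (hp a ha).imp fun k h => centS hU.le h)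
      (eq_bot_iff.2 ((inf_le_inf_right _ hU.le).trans h0.le))
  have sc : ∀ c : ℕ, ∑ _a ∈ fs (A : Set G), c = #|A| * c := sum_fs_sub_const A
  by_cases xH : x ∈ 𝐍(H)
  · have xU : x ∈ 𝐍(⁅V, H⁆) := norms_cycle.1 (normsR (norms_cycle.2 hxV) (norms_cycle.2 xH))
    have xW : x ∈ 𝐍(V ⊓ 𝐂(H)) :=
      norms_cycle.1 (normsI (norms_cycle.2 hxV) (norms_cycle.2 (cent_norm H xH)))
    obtain ⟨b, hb, bH⟩ := SetLike.not_le_iff_exists.1 fun h : A ≤ H =>
      hW (eq_bot_iff.2 ((inf_le_inf_left _ (centS h)).trans h0.le))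
    have e := sum_fs_mul_left hb fun a => vp p (V ⊓ 𝐂(H) ⊓ 𝐂[a * x])
    have := ih' _ lt nU xU
    have s : ∑ a ∈ fs (A : Set G), (vp p (V ⊓ 𝐂(H) ⊓ 𝐂[a * x]) + vp p (V ⊓ 𝐂(H) ⊓ 𝐂[b * a * x])) ≤
        #|A| * vp p (V ⊓ 𝐂(H)) := by
      rw [← sc]
      refine Finset.sum_le_sum fun a _ => vp_TI inf_le_left inf_le_left (cents_norm (centSS
        (inf_le_left.trans inf_le_left) (inf_le_left.trans inf_le_left) (abelianE.1 hV))) ?_
      rw [eq_bot_iff, ← mx' _ (cycle_subG.2 hb) (mt cycle_subG.1 bH), cent_cycle]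
      exact fun y hy => ⟨hy.1.1, cent1C.1 (by
        simpa [mul_assoc] using mul_mem (cent1C.1 hy.2.2) (inv_mem (cent1C.1 hy.1.2)))⟩
    rw [Finset.sum_add_distrib, e] at s
    rw [← vp_dprod D, mul_add, Finset.sum_congr rfl fun a ha => by
      rw [← vp_dprod (D.subcent1 (mul_mem (nU (mem_fs.1 ha)) xU) (mul_mem (nW (mem_fs.1 ha)) xW)),
        mul_add], Finset.sum_add_distrib, ← Finset.mul_sum _ (fun a => vp p (V ⊓ 𝐂(H) ⊓ 𝐂[a * x]))]
    omega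
  · let U := ⨅ g : ↥(A ⊔ zpowers x), cj (g : G) ⁅V, H⁆
    have mU : ∀ {y}, y ∈ U ↔ ∀ g ∈ A ⊔ zpowers x, g⁻¹ * y * g ∈ ⁅V, H⁆ := by
      simp only [U, mem_iInf, mem_cj, Subtype.forall, implies_true]
    have nU' : A ⊔ zpowers x ≤ 𝐍(U) := norms_of_conj_mem fun a ha y hy => mU.2 fun g hg => by
      simpa [mul_assoc] using mU.1 hy _ (mul_mem (inv_mem ha) hg)
    have UU : U ≤ ⁅V, H⁆ := fun y hy => by simpa using mU.1 hy 1 (one_mem _)
    have xx : x ∈ A ⊔ zpowers x := mem_sup_right (mem_zpowers x)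
    have := ih' U (UU.trans_lt lt) (le_sup_left.trans nU') (nU' xx)
    have e : cj x (V ⊓ 𝐂(H)) = V ⊓ 𝐂(cj x H) := by rw [cj_inf, centJ, cj_eq_of_mem_normalizer hxV]
    have HA' : cj x H ≤ A := cj_eq_of_mem_normalizer hx ▸ cj_mono x HA
    have nW' : A ≤ 𝐍(V ⊓ 𝐂(cj x H)) := normsI hA ((sub_der1_norm (by
      rw [← cj_eq_of_mem_normalizer (der_char A hx)]; exact cj_mono x dH) HA').trans (cent_norm _))
    have WU : V ⊓ 𝐂(cj x H) ≤ ⁅V, H⁆ := by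
      have := dprod_cent (abelianS inf_le_left hV) (fun h => hq (h.trans (card_dvd_of_le
        inf_le_left))) (HA.trans nW') fun a ha => (hp a (HA ha)).imp fun k h => centS inf_le_left h
      rw [inf_right_comm, mx' _ HA' fun h => xH (cj_eq_iff.1 (cj_eq_of_le h))] at this
      exact (this.sdprod.right_eq_bot_iff.1 rfl).ge.trans (commSg H inf_le_left)
    have s := vp_TI (p := p) WU UU (cents_norm (centSS (UU.trans lt.le) inf_le_left
      (abelianE.1 hV))) (by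
        rw [eq_bot_iff, ← cj_bot x, ← D.disj, cj_inf, e]
        exact fun y hy => ⟨mem_cj.2 (mU.1 hy.2 x xx), hy.1⟩)
    rw [← e, vp, card_cj, ← vp] at s
    refine le_trans (Finset.sum_le_sum (g := fun a => 2 * vp p (U ⊓ 𝐂[a * x]) +
      2 * vp p (V ⊓ 𝐂(H))) fun a ha => ?_) ?_
    · have ha := mem_fs.1 ha
      have := vp_le (p := p) (inf_le_left (b := 𝐂[a * x])) D
      have := vp_mono (p := p) (show V ⊓ 𝐂[a * x] ⊓ ⁅V, H⁆ ≤ U ⊓ 𝐂[a * x] from fun y hy =>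
        ⟨mU.2 fun g hg => by
          have : A ⊔ zpowers x ≤ zpowers (a * x) ⊔ A := sup_le le_sup_right (cycle_subG.2 (by
            simpa using mul_mem (mem_sup_right (inv_mem ha) : a⁻¹ ∈ zpowers (a * x) ⊔ A)
              (mem_sup_left (mem_zpowers (a * x)))))
          obtain ⟨z, hz, b, hb, rfl⟩ := (mem_join_norm' (norms_cycle.2 (mul_mem (normG A ha) hx))).1
            (this hg)
          have := mem_cent1.1 (cent1_le_of_mem_zpowers hz hy.1.2)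
          rw [mul_inv_rev, mul_assoc, mul_assoc, ← mul_assoc y, this, mul_assoc,
            inv_mul_cancel_left, ← mul_assoc]
          exact (memJ_norm' (nU hb)).2 hy.2, hy.1.2⟩)
      omega
    · rw [Finset.sum_add_distrib, sc, ← vp_dprod D]
      nlinarith [Nat.mul_le_mul_left #|A| s]

/-- Neumann - Vaughan-Lee -/
theorem nvl [Fact p.Prime] (hs : Group.IsSolvable G) (hV : MinNormal V ⊤) (hp : IsPGroup p V)
    (hc : 𝐂(V) ≠ ⊤) {G' : Type*} [Group G'] [Fintype G'] {f : G' → G}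
    (hf : ∀ a b, f (a * b) = f a * f b) (hf' : Function.Surjective f) :
    ∑ g, 2 * vp p (V ⊓ 𝐂[f g]) ≤ Nat.card G' * vp p V := by
  have nC := hV.nz.trans (cent_norm V)
  obtain ⟨A, -, hA⟩ := chief_factor_exists_above (normal_refl ⊤) nC hc.lt_top
  obtain ⟨q, n, hq, -, -, h1, h2⟩ := sol_chief_abelem' hA inferInstance
  haveI := Fact.mk hq
  have nA := hA.nrm.nz
  have h0 : V ⊓ 𝐂(A) = ⊥ := (hV.eq_or inf_le_left (normsI hV.nz (nA.trans (cent_norm A)))).resolve_right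
    fun e => hA.lt.not_ge (centsC.1 (e.ge.trans inf_le_right))
  have h2' : ∀ a ∈ A, ∃ k, a ^ q ^ k ∈ 𝐂(V) := fun a ha => ⟨1, by simpa using h2 a ha⟩
  have qp : ¬ q ∣ #|V| := fun h => by
    obtain ⟨k, hk⟩ := IsPGroup.iff_card.1 hp
    obtain rfl := (Nat.prime_dvd_prime_iff_eq hq Fact.out).1 (hq.dvd_of_dvd_pow (hk ▸ h))
    exact cent_ne_bot hp hV.ne (le_top.trans hV.nz) h2' h0
  refine Nat.le_of_mul_le_mul_left ?_ (Nat.card_pos (α := A))
  calc _ = ∑ a ∈ fs (A : Set G), ∑ g, 2 * vp p (V ⊓ 𝐂[a * f g]) := by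
        rw [← smul_eq_mul, ← sum_fs_sub_const]
        refine Finset.sum_congr rfl fun a _ => ?_
        obtain ⟨b, rfl⟩ := hf' a
        simp only [← hf]
        exact (Equiv.sum_comp (Equiv.mulLeft b) fun g => 2 * vp p (V ⊓ 𝐂[f g])).symm
    _ ≤ ∑ _g : G', #|A| * vp p V := by
        rw [Finset.sum_comm]
        exact Finset.sum_le_sum fun g _ => coset_bound p (nA (mem_top _))
          (abelem_abelian (minnormal_pgroup_abelem hV hp)) qp (le_top.trans hV.nz) (hV.nz (mem_top _)) h1 h2' h0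
    _ = _ := by simp [mul_left_comm]

end Cfsg.Agent.Prim
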